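import Mathlib

set_option autoImplicit false

/-! Abstract lemmas on automorphisms of elementary abelian `2`-groups, used for the case `p = 2` of
Thompson's normal `p`-complement theorem (abelian version of `J`, `S₄`-free groups). -/

namespace Cfsg.Agent.Lib.Helper1

open Subgroup

section Weight

variable {H : Type*} [Group H] [Finite H]

/-- the elements of `T` fixing `x` under conjugation -/
def stabSet (T : Subgroup H) (x : H) : Set H := {a | a ∈ T ∧ a * x * a⁻¹ = x}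

theorem stabSet_ssubset (Kh T : Subgroup H) (hKc : ∀ x ∈ Kh, ∀ y ∈ Kh, x * y = y * x)
    (hTc : ∀ a ∈ T, ∀ b ∈ T, a * b = b * a) (hT2 : ∀ a ∈ T, a * a = 1)
    (hTK : ∀ a ∈ T, ∀ x ∈ Kh, a * x * a⁻¹ ∈ Kh) {x b : H} (hx : x ∈ Kh) (hb : b ∈ T)
    (hbx : b * x * b⁻¹ ≠ x) : stabSet T x ⊂ stabSet T (x * (b * x * b⁻¹)) := by
  rw [Set.ssubset_iff_of_subset]
  · refine ⟨b, ⟨hb, ?_⟩, fun h => hbx h.2⟩
    have hb2 : b⁻¹ = b := inv_eq_of_mul_eq_one_left (hT2 b hb)
    calc b * (x * (b * x * b⁻¹)) * b⁻¹ = (b * x * b⁻¹) * ((b * b) * x * (b⁻¹ * b⁻¹)) := by group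
      _ = (b * x * b⁻¹) * x := by rw [hb2, hT2 b hb]; group
      _ = x * (b * x * b⁻¹) := hKc _ (hTK b hb x hx) _ hx
  · rintro a ⟨ha, hax⟩
    refine ⟨ha, ?_⟩
    have hab : a * b = b * a := hTc a ha b hb
    calc a * (x * (b * x * b⁻¹)) * a⁻¹ = (a * x * a⁻¹) * ((a * b) * x * (a * b)⁻¹) := by group
      _ = (a * x * a⁻¹) * (b * (a * x * a⁻¹) * b⁻¹) := by rw [hab]; group
      _ = x * (b * x * b⁻¹) := by rw [hax]

/-- An elementary abelian `2`-group acting nontrivially on an abelian group of odd order has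
a "weight vector" of prime order for a nontrivial character. -/
theorem exists_weight (Kh T : Subgroup H) (hKc : ∀ x ∈ Kh, ∀ y ∈ Kh, x * y = y * x)
    (hKo : ∀ x ∈ Kh, x * x = 1 → x = 1)
    (hTc : ∀ a ∈ T, ∀ b ∈ T, a * b = b * a) (hT2 : ∀ a ∈ T, a * a = 1)
    (hTK : ∀ a ∈ T, ∀ x ∈ Kh, a * x * a⁻¹ ∈ Kh) (hne : ∃ a ∈ T, ∃ x ∈ Kh, a * x * a⁻¹ ≠ x) :
    ∃ m ∈ Kh, (orderOf m).Prime ∧ (∀ a ∈ T, a * m * a⁻¹ = m ∨ a * m * a⁻¹ = m⁻¹) ∧
      ∃ a ∈ T, a * m * a⁻¹ ≠ m := by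
  obtain ⟨a₀, ha₀, x₀, hx₀, hax₀⟩ := hne
  let F : H → Prop := fun x => x ∈ Kh ∧ ∃ a ∈ T, a * x * a⁻¹ ≠ x
  have : Nonempty {x : H // F x} := ⟨⟨x₀, hx₀, a₀, ha₀, hax₀⟩⟩
  obtain ⟨⟨x, hxK, b, hb, hbx⟩, hmax⟩ :=
    Finite.exists_max (fun x : {x : H // F x} => (stabSet T x.1).ncard)
  -- the key consequence of maximality
  have key : ∀ y : H, y ∈ Kh → (stabSet T x).ncard ≤ (stabSet T y).ncard → ∀ g ∈ T,
      g * y * g⁻¹ ≠ y → ∀ a ∈ T, a * (y * (g * y * g⁻¹)) * a⁻¹ = y * (g * y * g⁻¹) := by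
    intro y hy hcard g hg hgy a ha
    by_contra hcon
    have h1 := stabSet_ssubset Kh T hKc hTc hT2 hTK hy hg hgy
    have h2 := Set.ncard_lt_ncard h1 (Set.toFinite _)
    have h3 := hmax ⟨y * (g * y * g⁻¹), Kh.mul_mem hy (hTK g hg y hy), a, ha, hcon⟩
    simp only at h3
    omega
  set m : H := x * (b * x * b⁻¹)⁻¹ with hm
  have hb2 : b⁻¹ = b := inv_eq_of_mul_eq_one_left (hT2 b hb)
  have hmK : m ∈ Kh := Kh.mul_mem hxK (Kh.inv_mem (hTK b hb x hxK))
  have hm1 : m ≠ 1 := by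
    intro h
    apply hbx
    rw [hm, mul_inv_eq_one] at h
    exact h.symm
  have hbm : b * m * b⁻¹ = m⁻¹ := by
    calc b * m * b⁻¹ = (b * x * b⁻¹) * ((b * b) * x * (b⁻¹ * b⁻¹))⁻¹ := by rw [hm]; group
      _ = (b * x * b⁻¹) * x⁻¹ := by rw [hb2, hT2 b hb]; group
      _ = m⁻¹ := by rw [hm]; group
  have hinvne : ∀ z ∈ Kh, z ≠ 1 → z⁻¹ ≠ z := by
    intro z hz hz1 h
    apply hz1
    apply hKo z hz
    calc z * z = z⁻¹ * z := by rw [h]
      _ = 1 := by group
  have hsub : stabSet T x ⊆ stabSet T m := by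
    rintro a ⟨ha, hax⟩
    refine ⟨ha, ?_⟩
    have hab : a * b = b * a := hTc a ha b hb
    calc a * m * a⁻¹ = (a * x * a⁻¹) * ((a * b) * x * (a * b)⁻¹)⁻¹ := by rw [hm]; group
      _ = (a * x * a⁻¹) * (b * (a * x * a⁻¹) * b⁻¹)⁻¹ := by rw [hab]; group
      _ = m := by rw [hax]
  have hcard : (stabSet T x).ncard ≤ (stabSet T m).ncard := Set.ncard_le_ncard hsub (Set.toFinite _)
  have hmain : ∀ g ∈ T, g * m * g⁻¹ = m ∨ g * m * g⁻¹ = m⁻¹ := by
    intro g hg
    by_cases hgm : g * m * g⁻¹ = m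
    · exact Or.inl hgm
    · right
      have h1 := key m hmK hcard g hg hgm b hb
      set z : H := m * (g * m * g⁻¹) with hz
      have hgmK : g * m * g⁻¹ ∈ Kh := hTK g hg m hmK
      have hzK : z ∈ Kh := Kh.mul_mem hmK hgmK
      have hbg : b * g = g * b := hTc b hb g hg
      have h2 : b * z * b⁻¹ = z⁻¹ := by
        calc b * z * b⁻¹ = (b * m * b⁻¹) * ((b * g) * m * (b * g)⁻¹) := by rw [hz]; group
          _ = (b * m * b⁻¹) * (g * (b * m * b⁻¹) * g⁻¹) := by rw [hbg]; group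
          _ = m⁻¹ * (g * m * g⁻¹)⁻¹ := by rw [hbm]; group
          _ = (g * m * g⁻¹)⁻¹ * m⁻¹ := hKc _ (Kh.inv_mem hmK) _ (Kh.inv_mem hgmK)
          _ = z⁻¹ := by rw [hz]; group
      have hz1 : z = 1 := by
        by_contra hne
        exact hinvne z hzK hne (h2.symm.trans h1)
      rw [hz] at hz1
      exact (eq_inv_of_mul_eq_one_right hz1)
  -- pass to prime order
  have hom : orderOf m ≠ 1 := fun h => hm1 (orderOf_eq_one_iff.mp h)
  set r := (orderOf m).minFac with hr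
  have hrp : r.Prime := Nat.minFac_prime hom
  set k := orderOf m / r with hk
  have hord : orderOf (m ^ k) = r :=
    orderOf_pow_orderOf_div (orderOf_pos m).ne' (Nat.minFac_dvd _)
  have hmkK : m ^ k ∈ Kh := Kh.pow_mem hmK k
  have hmk1 : m ^ k ≠ 1 := by
    intro h
    rw [h, orderOf_one] at hord
    exact hrp.one_lt.ne hord
  refine ⟨m ^ k, hmkK, hord ▸ hrp, ?_, b, hb, ?_⟩
  · intro a ha
    rw [← conj_pow]
    rcases hmain a ha with h | h
    · left; rw [h]
    · right; rw [h, inv_pow]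
  · rw [← conj_pow, hbm, inv_pow]
    exact hinvne _ hmkK hmk1

end Weight

section Aut

variable {V : Type*} [CommGroup V]

/-- `v ↦ m v * v⁻¹` -/
def dl (m : MulAut V) : V →* V where
  toFun v := m v * v⁻¹
  map_one' := by simp
  map_mul' a b := by
    rw [map_mul, mul_inv]
    exact mul_mul_mul_comm _ _ _ _

theorem dl_apply (m : MulAut V) (v : V) : dl m v = m v * v⁻¹ := rfl

theorem dl_eq_one_iff (m : MulAut V) (v : V) : dl m v = 1 ↔ m v = v := by
  rw [dl_apply, mul_inv_eq_one]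

/-- an automorphism of odd order has no nontrivial fixed points on `[V, m]` -/
theorem dl_fix_eq_one (hV : ∀ v : V, v ^ 2 = 1) (m : MulAut V) {n : ℕ} (hn : Odd n)
    (hm : m ^ n = 1) (v : V) (h : m (dl m v) = dl m v) : dl m v = 1 := by
  set e : V := dl m v with he
  have hmv : m v = v * e := by rw [he, dl_apply]; simp [mul_comm]
  have h1 : ∀ i : ℕ, (m ^ i) v = v * e ^ i := by
    intro i
    induction i with
    | zero => simp
    | succ i ih =>
      rw [pow_succ', MulAut.mul_apply, ih, map_mul, map_pow, h, hmv, pow_succ', mul_assoc]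
  have h2 := h1 n
  rw [hm, MulAut.one_apply] at h2
  have h3 : e ^ n = 1 := by
    have : v * e ^ n = v * 1 := by rw [mul_one]; exact h2.symm
    exact mul_left_cancel this
  obtain ⟨k, rfl⟩ := hn
  rwa [pow_succ, pow_mul, hV, one_pow, one_mul] at h3

theorem dl_comm {g m : MulAut V} (h : g * m = m * g) (v : V) : g (dl m v) = dl m (g v) := by
  rw [dl_apply, dl_apply, map_mul, map_inv, ← MulAut.mul_apply, h, MulAut.mul_apply]

/-- a version of the `P × Q` lemma -/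
theorem eq_one_of_fix [Finite V] (hV : ∀ v : V, v ^ 2 = 1) (m : MulAut V) {n : ℕ} (hn : Odd n)
    (hm : m ^ n = 1) (T : Subgroup (MulAut V)) (hT : IsPGroup 2 T) (hc : ∀ g ∈ T, g * m = m * g)
    (hfix : ∀ v : V, (∀ g ∈ T, g v = v) → m v = v) : m = 1 := by
  by_contra hne
  set W : Subgroup V := (dl m).range with hW
  letI act : MulAction T W :=
    { smul := fun g w => ⟨g.1 w.1, by
        obtain ⟨v, hv⟩ := w.2
        exact ⟨g.1 v, by rw [← dl_comm (hc g.1 g.2), hv]⟩⟩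
      one_smul := fun w => by ext; rfl
      mul_smul := fun g h w => by ext; rfl }
  have hsmul : ∀ (g : T) (w : W), ((g • w : W) : V) = g.1 w.1 := fun _ _ => rfl
  have hWp : IsPGroup 2 W := fun w => ⟨1, by ext; simpa using hV w.1⟩
  have hW1 : Nat.card W ≠ 1 := by
    intro h
    apply hne
    ext v
    rw [MulAut.one_apply, ← dl_eq_one_iff]
    have h1 : W = ⊥ := (Subgroup.card_eq_one).mp h
    have h2 : dl m v ∈ W := ⟨v, rfl⟩
    rw [h1] at h2
    exact h2
  have hdvd : 2 ∣ Nat.card W := by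
    haveI : Fact (Nat.Prime 2) := ⟨Nat.prime_two⟩
    rcases hWp.card_eq_or_dvd with h | h
    · exact absurd h hW1
    · exact h
  haveI : Fact (Nat.Prime 2) := ⟨Nat.prime_two⟩
  have hone : (1 : W) ∈ MulAction.fixedPoints T W := by
    intro g
    ext
    rw [hsmul]
    simp
  obtain ⟨w, hw, hw1⟩ := hT.exists_fixed_point_of_prime_dvd_card_of_fixed_point W hdvd hone
  apply hw1
  have h1 : m w.1 = w.1 := by
    apply hfix
    intro g hg
    have := hw ⟨g, hg⟩
    rw [← hsmul ⟨g, hg⟩ w, this]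
  obtain ⟨v, hv⟩ := w.2
  ext
  rw [← hv] at h1 ⊢
  exact (dl_fix_eq_one hV m hn hm v h1).symm

theorem dl_conj (x t : MulAut V) (v : V) : dl (x * t * x⁻¹) v = x (dl t (x⁻¹ v)) := by
  simp [dl_apply, MulAut.mul_apply]

theorem dl_mul (s t : MulAut V) (v : V) : dl (s * t) v = dl s (t v) * dl t v := by
  simp [dl_apply, MulAut.mul_apply]

theorem card_range_dl_le [Finite V] (t : MulAut V)
    (htr : Nat.card V ≤ 2 * Nat.card (dl t).ker) : Nat.card (dl t).range ≤ 2 := by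
  have h1 := Subgroup.card_mul_index (dl t).ker
  rw [Subgroup.index_ker] at h1
  rw [← h1, mul_comm] at htr
  exact Nat.le_of_mul_le_mul_right htr Nat.card_pos

/-- an element of odd order inverted by a transvection: `[V, m]` has order `4` -/
theorem card_range_dl [Finite V] (hV : ∀ v : V, v ^ 2 = 1) (m t : MulAut V) {n : ℕ} (hn : Odd n)
    (hm : m ^ n = 1) (hm1 : m ≠ 1) (ht : t * t = 1) (htm : t * m * t⁻¹ = m⁻¹)
    (htr : Nat.card V ≤ 2 * Nat.card (dl t).ker) : Nat.card (dl m).range = 4 := by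
  have hle2 := card_range_dl_le t htr
  obtain ⟨k, hk⟩ := hn
  set x : MulAut V := m ^ (k + 1) with hx
  have h1 : t * x⁻¹ * t⁻¹ = x := by
    rw [hx, ← inv_pow, ← conj_pow]
    congr 1
    calc t * m⁻¹ * t⁻¹ = (t * m * t⁻¹)⁻¹ := by group
      _ = m := by rw [htm, inv_inv]
  have h2 : x * x = m := by
    rw [hx, ← pow_add]
    have : k + 1 + (k + 1) = n + 1 := by omega
    rw [this, pow_succ, hm, one_mul]
  have h3 : m = (x * t * x⁻¹) * t := by
    calc m = x * x := h2.symm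
      _ = x * (t * x⁻¹ * t⁻¹) := by rw [h1]
      _ = (x * t * x⁻¹) * t⁻¹ := by group
      _ = (x * t * x⁻¹) * t := by rw [inv_eq_of_mul_eq_one_left ht]
  have h4 : ∀ v : V, dl m v = x (dl t (x⁻¹ (t v))) * dl t v := by
    intro v
    conv_lhs => rw [h3]
    rw [dl_mul, dl_conj]
  -- upper bound
  have hle4 : Nat.card (dl m).range ≤ 4 := by
    let ψ : (dl m).range → (dl t).range × (dl t).range := fun w =>
      (⟨dl t (x⁻¹ (t w.2.choose)), ⟨_, rfl⟩⟩, ⟨dl t w.2.choose, ⟨_, rfl⟩⟩)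
    have hψ : Function.Injective ψ := by
      intro w w' h
      have e1 : dl t (x⁻¹ (t w.2.choose)) = dl t (x⁻¹ (t w'.2.choose)) :=
        congrArg (fun z => (z.1 : V)) h
      have e2 : dl t w.2.choose = dl t w'.2.choose := congrArg (fun z => (z.2 : V)) h
      ext
      rw [← w.2.choose_spec, ← w'.2.choose_spec, h4, h4, e1, e2]
    have h5 := Nat.card_le_card_of_injective ψ hψ
    rw [Nat.card_prod] at h5
    calc Nat.card (dl m).range ≤ Nat.card (dl t).range * Nat.card (dl t).range := h5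
      _ ≤ 2 * 2 := Nat.mul_le_mul hle2 hle2
  -- three distinct elements
  obtain ⟨v, hv⟩ : ∃ v : V, m v ≠ v := by
    by_contra hcon
    push Not at hcon
    exact hm1 (by ext v; exact hcon v)
  have hw1 : dl m v ≠ 1 := fun h => hv ((dl_eq_one_iff m v).mp h)
  have hmw : m (dl m v) = dl m (m v) := dl_comm rfl v
  have hmw1 : dl m (m v) ≠ 1 := by
    rw [← hmw]
    intro h
    exact hw1 (by simpa using h)
  have hmw2 : dl m (m v) ≠ dl m v := by
    rw [← hmw]
    intro h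
    exact hw1 (dl_fix_eq_one hV m ⟨k, hk⟩ hm v h)
  have hWp : IsPGroup 2 (dl m).range := fun w => ⟨1, by ext; simpa using hV w.1⟩
  haveI : Fact (Nat.Prime 2) := ⟨Nat.prime_two⟩
  obtain ⟨j, hj⟩ := hWp.exists_card_eq
  have hj2 : j ≤ 2 := by
    by_contra hcon
    have : 2 ^ 3 ≤ 2 ^ j := Nat.pow_le_pow_right (by norm_num) (by omega)
    omega
  interval_cases j
  · exfalso
    have h5 : (dl m).range = ⊥ := (Subgroup.card_eq_one).mp (by simpa using hj)
    have h6 : dl m v ∈ (dl m).range := ⟨v, rfl⟩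
    rw [h5] at h6
    exact hw1 h6
  · exfalso
    have h5 : Nat.card (dl m).range = 2 := by simpa using hj
    obtain ⟨y, -, hy⟩ := (Nat.card_eq_two_iff' (1 : (dl m).range)).mp h5
    have e1 := hy ⟨dl m v, ⟨v, rfl⟩⟩ (fun h => hw1 (congrArg Subtype.val h))
    have e2 := hy ⟨dl m (m v), ⟨m v, rfl⟩⟩ (fun h => hmw1 (congrArg Subtype.val h))
    exact hmw2 (congrArg Subtype.val (e2.trans e1.symm))
  · simpa using hj

/-- if `t` inverts the element `m` of odd order and fixes `v` and `m v`, then `m` fixes `v` -/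
theorem fix_of_inverted (m t : MulAut V) {n : ℕ} (hn : Odd n) (hm : m ^ n = 1)
    (htm : t * m * t⁻¹ = m⁻¹) (v : V) (h1 : t v = v) (h2 : t (m v) = m v) : m v = v := by
  have h3 : t⁻¹ v = v := by
    rw [MulAut.inv_apply, MulEquiv.symm_apply_eq, h1]
  have h4 : m⁻¹ v = m v := by
    rw [← htm, MulAut.mul_apply, MulAut.mul_apply, h3, h2]
  have h5 : m (m v) = v := by
    rw [← h4]
    simp
  have h6 : ∀ i : ℕ, (m ^ (2 * i)) v = v := by
    intro i
    induction i with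
    | zero => simp
    | succ i ih =>
      have : 2 * (i + 1) = 2 * i + 1 + 1 := by ring
      rw [this, pow_succ, pow_succ, MulAut.mul_apply, MulAut.mul_apply, h5, ih]
  obtain ⟨k, hk⟩ := hn
  have h7 := h6 (k + 1)
  have h8 : 2 * (k + 1) = n + 1 := by omega
  rwa [h8, pow_succ, hm, one_mul] at h7

theorem dl_inverted {m t : MulAut V} (htm : t * m * t⁻¹ = m⁻¹) (v : V) :
    t (dl m v) ∈ (dl m).range := by
  have h1 : t * m = m⁻¹ * t := mul_inv_eq_iff_eq_mul.mp htm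
  refine ⟨(m⁻¹ (t v))⁻¹, ?_⟩
  have h2 : t (m v) = m⁻¹ (t v) := by
    rw [← MulAut.mul_apply, h1, MulAut.mul_apply]
  rw [dl_apply, dl_apply, map_mul, map_inv, map_inv, h2, inv_inv]
  simp [mul_comm]

end Aut

end Cfsg.Agent.Lib.Helper1
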